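import Cfsg.Agent.H778.FX.Ext

/-!
# S5719, PSL row: `A` contains a fundamental involution
-/

set_option autoImplicit false

namespace Cfsg.Agent.H778.FX

open Subgroup Module Cfsg.Agent.H847.Bs Cfsg.Agent.H209.Fxy Cfsg.Agent.H440.Bs Polynomial

/-- PHI, all linear groups in odd characteristic -/
structure PhiAll : Prop where
  one : ∀ (F V : Type) [Field F] [Finite F] [AddCommGroup V] [Module F V] [FiniteDimensional F V],
    (2 : F) ≠ 0 → Phi1 F V
  two : ∀ (F V : Type) [Field F] [Finite F] [AddCommGroup V] [Module F V] [FiniteDimensional F V]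
    (D U : Submodule F V), (2 : F) ≠ 0 → Phi2 D U

variable {F V : Type} [Field F] [Finite F] [AddCommGroup V] [Module F V] [FiniteDimensional F V]
  {T : Type*} [Group T] [Finite T] [IsSimpleGroup T] {A : Subgroup T} {Γ : Subgroup (MulAut T)}

theorem three_le (h2 : (2 : F) ≠ 0) : 3 ≤ Nat.card F := by
  have h0 : (0 : F) ≠ 1 := zero_ne_one
  have h1 : (1 : F) ≠ -1 := by
    intro h
    apply h2
    linear_combination h
  have h3 : (0 : F) ≠ -1 := by
    intro h
    apply one_ne_zero (α := F)
    linear_combination h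
  have := Fintype.ofFinite F
  classical
  have h4 : ({0, 1, -1} : Finset F).card = 3 := by
    rw [Finset.card_insert_of_notMem, Finset.card_insert_of_notMem, Finset.card_singleton]
    · simpa using h1
    · simp only [Finset.mem_insert, Finset.mem_singleton, not_or]
      exact ⟨h0, h3⟩
  rw [← h4, Nat.card_eq_fintype_card]
  exact Finset.card_le_univ _

omit [Finite F] [FiniteDimensional F V] in
/-- the fixed spaces -/
theorem split_spaces (h2 : (2 : F) ≠ 0) {g : V ≃ₗ[F] V} {μ : F} (hμ : μ ≠ 0) (hg : ∀ v, g (g v) = (μ * μ) • v) :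
    ∃ D U : Submodule F V, IsCompl D U ∧ (∀ v ∈ D, g v = μ • v) ∧ (∀ v ∈ U, g v = (-μ) • v) := by
  refine ⟨LinearMap.ker ((g : V →ₗ[F] V) - μ • LinearMap.id), LinearMap.ker ((g : V →ₗ[F] V) + μ • LinearMap.id),
    ?_, ?_, ?_⟩
  · constructor
    · rw [Submodule.disjoint_def]
      intro v hv hv'
      have h3 : g v - μ • v = 0 := hv
      have h4 : g v + μ • v = 0 := hv'
      have h5 : (2 * μ) • v = 0 := by
        calc (2 * μ) • v = (g v + μ • v) - (g v - μ • v) := by rw [two_mul, add_smul]; abel
          _ = 0 := by rw [h3, h4, sub_zero]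
      rcases smul_eq_zero.1 h5 with h6 | h6
      · rcases mul_eq_zero.1 h6 with h7 | h7
        · exact absurd h7 h2
        · exact absurd h7 hμ
      · exact h6
    · rw [codisjoint_iff, eq_top_iff]
      intro v _
      have h3 : v = (2 * μ)⁻¹ • (g v + μ • v) + (-(2 * μ)⁻¹) • (g v - μ • v) := by
        rw [neg_smul, ← sub_eq_add_neg, ← smul_sub]
        have : (g v + μ • v) - (g v - μ • v) = (2 * μ) • v := by rw [two_mul, add_smul]; abel
        rw [this, smul_smul, inv_mul_cancel₀ (mul_ne_zero h2 hμ), one_smul]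
      rw [h3]
      apply Submodule.add_mem_sup
      · apply Submodule.smul_mem
        show g (g v + μ • v) - μ • (g v + μ • v) = 0
        rw [map_add, map_smul, hg, smul_add, smul_smul]
        abel
      · apply Submodule.smul_mem
        show g (g v - μ • v) + μ • (g v - μ • v) = 0
        rw [map_sub, map_smul, hg, smul_sub, smul_smul]
        abel
  · intro v hv
    exact sub_eq_zero.1 hv
  · intro v hv
    have h3 : g v + μ • v = 0 := hv
    rw [neg_smul]
    exact eq_neg_of_add_eq_zero_left h3

/-- **`A` contains a fundamental involution** -/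
theorem exists_fund (phi : PhiAll) (h : IF A Γ) (hna : ∃ a b : T, a * b ≠ b * a) {π : slV F V →* T} (hπ : Lft π)
    (h6 : 5 ≤ finrank F V) (h2 : (2 : F) ≠ 0) (hev : ∃ t ∈ A, orderOf t = 2) :
    ∃ z : slV F V, Fund (z : V ≃ₗ[F] V) ∧ π z ∈ A := by
  have hq := three_le h2
  obtain ⟨t, htA, ht2⟩ := hev
  obtain ⟨g, rfl⟩ := hπ.surj t
  have hgg : π (g * g) = 1 := by rw [map_mul, ← pow_two, ← ht2, pow_orderOf_eq_one]
  have hg1 : π g ≠ 1 := by
    intro h1
    rw [h1, orderOf_one] at ht2
    omega
  obtain ⟨c, hc⟩ := (hπ.ker _).1 hgg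
  have hc' : ∀ v, (g : V ≃ₗ[F] V) ((g : V ≃ₗ[F] V) v) = c • v := hc
  have hV : ∃ v : V, v ≠ 0 := by
    have : Nontrivial V := Module.nontrivial_of_finrank_pos (R := F) (by omega)
    exact exists_ne 0
  have hc0 : c ≠ 0 := by
    rintro rfl
    obtain ⟨v, hv⟩ := hV
    apply hv
    have h3 := hc' v
    rw [zero_smul, LinearEquiv.map_eq_zero_iff, LinearEquiv.map_eq_zero_iff] at h3
    exact h3
  by_cases hsq : ∃ μ : F, c = μ * μ
  · obtain ⟨μ, rfl⟩ := hsq
    have hμ : μ ≠ 0 := by
      rintro rfl
      exact hc0 (mul_zero 0)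
    obtain ⟨D, U, hDU, hD, hU⟩ := split_spaces h2 hμ hc'
    refine fund_of_split h hna hπ hq (by omega) h2 hDU (phi.two F V D U h2) hμ hD hU ?_ ?_ htA
    · rintro rfl
      apply hg1
      rw [hπ.ker]
      refine ⟨-μ, fun v => hU v ?_⟩
      rw [eq_top_of_isCompl_bot hDU.symm]
      trivial
    · rintro rfl
      apply hg1
      rw [hπ.ker]
      refine ⟨μ, fun v => hD v ?_⟩
      rw [eq_top_of_isCompl_bot hDU]
      trivial
  · -- quadratic extension
    set p : F[X] := X ^ 2 - C c with hp
    have hirr : Irreducible p := by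
      have hdeg : p.natDegree = 2 := by rw [hp]; exact natDegree_X_pow_sub_C
      rw [Polynomial.irreducible_iff_roots_eq_zero_of_degree_le_three (by omega) (by omega)]
      rw [Multiset.eq_zero_iff_forall_notMem]
      intro x hx
      have h3 := (Polynomial.mem_roots'.1 hx).2
      rw [Polynomial.IsRoot, hp, eval_sub, eval_pow, eval_X, eval_C] at h3
      exact hsq ⟨x, by linear_combination -h3⟩
    have : Fact (Irreducible p) := ⟨hirr⟩
    have hp0 : p ≠ 0 := hirr.ne_zero
    have hpd : p.natDegree = 2 := by rw [hp]; exact natDegree_X_pow_sub_C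
    set L : Module.End F V := ((g : V ≃ₗ[F] V) : V →ₗ[F] V) with hL
    have hLL : aeval L p = 0 := by
      rw [hp, map_sub, map_pow, aeval_X, aeval_C]
      ext v
      show L ((L ^ 1) v) - _ = 0
      rw [pow_one]
      have h3 : (algebraMap F (Module.End F V) c) v = c • v := Module.algebraMap_end_apply ..
      rw [h3, sub_eq_zero]
      exact hc' v
    let φ : AdjoinRoot p →+* Module.End F V :=
      Ideal.Quotient.lift (Ideal.span {p}) (aeval L : F[X] →ₐ[F] Module.End F V).toRingHom (by
        intro a ha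
        obtain ⟨c, rfl⟩ := Ideal.mem_span_singleton.1 ha
        show aeval L (p * c) = 0
        rw [map_mul, hLL, zero_mul])
    have hφ : ∀ P : F[X], φ (AdjoinRoot.mk p P) = aeval L P := fun P => rfl
    let _ : Module (AdjoinRoot p) V := Module.compHom V φ
    have hsm : ∀ (k : AdjoinRoot p) (v : V), k • v = φ k v := fun _ _ => rfl
    have : IsScalarTower F (AdjoinRoot p) V := ⟨fun c k v => by
      obtain ⟨P, rfl⟩ := AdjoinRoot.mk_surjective k
      have h1 : c • AdjoinRoot.mk p P = AdjoinRoot.mk p (c • P) := rfl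
      rw [h1, hsm, hsm, hφ, hφ, map_smul, LinearMap.smul_apply]⟩
    have hfE : finrank F (AdjoinRoot p) = 2 := by
      rw [(AdjoinRoot.powerBasis hp0).finrank, AdjoinRoot.powerBasis_dim, hpd]
    have hfd : FiniteDimensional F (AdjoinRoot p) := (AdjoinRoot.powerBasis hp0).finite
    have hfinE : Finite (AdjoinRoot p) := Module.finite_of_finite F
    have hfdV : FiniteDimensional (AdjoinRoot p) V := Module.Finite.of_restrictScalars_finite F _ _
    have h2K : (2 : AdjoinRoot p) ≠ 0 := by
      intro h3
      apply h2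
      apply (algebraMap F (AdjoinRoot p)).injective
      rw [map_zero, ← h3]
      exact map_ofNat (algebraMap F (AdjoinRoot p)) 2
    have hroot : AdjoinRoot.root p * AdjoinRoot.root p = algebraMap F (AdjoinRoot p) c := by
      have h3 : AdjoinRoot.mk p (X ^ 2 - C c) = 0 := AdjoinRoot.mk_self
      rw [map_sub, map_pow, AdjoinRoot.mk_X, AdjoinRoot.mk_C, sub_eq_zero, pow_two] at h3
      exact h3
    obtain ⟨z, W, U, hzA, hWU, hW4, hzW, hzU⟩ := split_of_ext (K := AdjoinRoot p) h hna hπ hq h6 hfE
      (phi.one (AdjoinRoot p) V h2K) (t := g) (k := AdjoinRoot.root p) (fun v => by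
        rw [hsm]
        have h3 : φ (AdjoinRoot.root p) = L := by
          rw [← AdjoinRoot.mk_X, hφ, aeval_X]
        rw [h3]
        rfl) (fun x hx => by
        apply hsq
        refine ⟨x, ?_⟩
        apply (algebraMap F (AdjoinRoot p)).injective
        rw [map_mul, hx, hroot]) ⟨c, hroot.symm⟩ htA
    have hU0 : U ≠ ⊥ := by
      rintro rfl
      have h3 := Submodule.finrank_add_eq_of_isCompl hWU
      rw [finrank_bot, hW4] at h3
      omega
    refine fund_of_split h hna hπ hq (by omega) h2 hWU.symm (phi.two F V U W h2) (μ := 1) one_ne_zero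
      (fun v hv => by rw [one_smul]; exact hzU v hv) (fun v hv => by rw [neg_smul, one_smul]; exact hzW v hv) hU0 ?_ hzA
    rintro rfl
    rw [finrank_bot] at hW4
    omega

end Cfsg.Agent.H778.FX
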