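import Cfsg.Agent.H778.FX.Fund

/-!
# S5719, PSL row: involutions whose preimage has no eigenvalue
-/

set_option autoImplicit false

namespace Cfsg.Agent.H778.FX

open Subgroup Module Cfsg.Agent.H847.Bs Cfsg.Agent.H209.Fxy Cfsg.Agent.H440.Bs

section ext

variable {F K V : Type} [Field F] [Finite F] [Field K] [Algebra F K] [AddCommGroup V] [Module F V] [Module K V]
  [IsScalarTower F K V] [FiniteDimensional F V] [FiniteDimensional K V] [FiniteDimensional F K]
  {T : Type*} [Group T] [Finite T] [IsSimpleGroup T] {A : Subgroup T} {Γ : Subgroup (MulAut T)}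

/-- restriction of scalars -/
noncomputable def resSL (F K V : Type) [Field F] [Field K] [Algebra F K] [AddCommGroup V] [Module F V] [Module K V]
    [IsScalarTower F K V] [FiniteDimensional F V] [FiniteDimensional K V] [FiniteDimensional F K] :
    slV K V →* slV F V where
  toFun g := ⟨(g : V ≃ₗ[K] V).restrictScalars F, by
    rw [mem_slV]
    have h1 : (((g : V ≃ₗ[K] V).restrictScalars F : V ≃ₗ[F] V) : V →ₗ[F] V) =
        ((g : V ≃ₗ[K] V) : V →ₗ[K] V).restrictScalars F := rfl
    rw [h1, LinearMap.det_restrictScalars, mem_slV.1 g.2, map_one]⟩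
  map_one' := rfl
  map_mul' _ _ := rfl

omit [Finite F] in
theorem resSL_apply (g : slV K V) (v : V) : (resSL F K V g : V ≃ₗ[F] V) v = (g : V ≃ₗ[K] V) v := rfl

/-- **an involution which comes from a quadratic extension** -/
theorem split_of_ext (h : IF A Γ) (hna : ∃ a b : T, a * b ≠ b * a) {π : slV F V →* T} (hπ : Lft π)
    (hq : 3 ≤ Nat.card F) (h3 : 5 ≤ finrank F V) (hFK : finrank F K = 2) (phi : Phi1 K V) {t : slV F V}
    {k : K} (hk : ∀ v, (t : V ≃ₗ[F] V) v = k • v) (hk1 : ∀ c : F, algebraMap F K c ≠ k)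
    (hk2 : ∃ c : F, algebraMap F K c = k * k) (ht : π t ∈ A) :
    ∃ (z : slV F V) (W U : Submodule F V), π z ∈ A ∧ IsCompl W U ∧ finrank F W = 4 ∧
      (∀ w ∈ W, (z : V ≃ₗ[F] V) w = -w) ∧ ∀ u ∈ U, (z : V ≃ₗ[F] V) u = u := by
  have hfin : Finite V := finite_of_fd (F := F)
  have hfK : Finite K := Module.finite_of_finite F
  have hcK : Nat.card K = Nat.card F ^ 2 := by rw [← hFK]; exact Module.natCard_eq_pow_finrank
  have hd : finrank F V = 2 * finrank K V := by rw [← hFK, Module.finrank_mul_finrank]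
  have hV : ∃ v : V, v ≠ 0 := by
    have : Nontrivial V := Module.nontrivial_of_finrank_pos (R := F) (by omega)
    exact exists_ne 0
  have ht1 : π t ≠ 1 := by
    intro h1
    obtain ⟨c, hc'⟩ := (hπ.ker t).1 h1
    obtain ⟨v, hv⟩ := hV
    apply hk1 c
    refine smul_left_injective K hv ?_
    show algebraMap F K c • v = k • v
    rw [← hk, hc', algebraMap_smul]
  have ht2 : π (t * t) = 1 := by
    rw [hπ.ker]
    obtain ⟨c, hc⟩ := hk2
    refine ⟨c, fun v => ?_⟩
    change (t : V ≃ₗ[F] V) ((t : V ≃ₗ[F] V) v) = _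
    rw [hk, hk, smul_smul, ← hc, algebraMap_smul]
  have h5 := Cfsg.Agent.H847.IF.lift_E2 h hna π hπ.surj ht ht1 ht2 (B := (resSL F K V).range) (by
    rintro _ ⟨x, rfl⟩
    congr 1
    apply Subtype.ext
    ext v
    change (resSL F K V x : V ≃ₗ[F] V) ((t : V ≃ₗ[F] V) v) = (t : V ≃ₗ[F] V) ((resSL F K V x : V ≃ₗ[F] V) v)
    rw [hk, resSL_apply, resSL_apply, hk, map_smul])
  rw [← index_comap] at h5
  have h6 : (centralizer ({t} : Set (slV F V))).index ≤ 2 * Nat.card F ^ (2 * (finrank K V * finrank K V)) := by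
    refine index_cent_le t (N := gl (Nat.card K) (finrank K V)) (gl_pos (by rw [hcK]; nlinarith) _) ?_ ?_
    · rw [← card_lin]
      let f : (V ≃ₗ[K] V) → centralizer ({(t : V ≃ₗ[F] V)} : Set (V ≃ₗ[F] V)) :=
        fun g => ⟨g.restrictScalars F, by
          rw [mem_centralizer_singleton_iff]
          ext v
          change g ((t : V ≃ₗ[F] V) v) = (t : V ≃ₗ[F] V) (g v)
          rw [hk, hk, map_smul]⟩
      refine Nat.card_le_card_of_injective f fun p p' hp => ?_
      exact LinearEquiv.restrictScalars_injective F (congrArg Subtype.val hp)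
    · rw [card_lin, hd, hcK]
      exact gl_sq_le hq _
  by_contra hcon
  push Not at hcon
  have h7 := phi ((A.comap π).comap (resSL F K V)) (fun z hz hzX => by
    obtain ⟨W, U, hc, hW2, hW, hU⟩ := hz
    obtain ⟨u, hu, hne⟩ := hcon (resSL F K V z) (W.restrictScalars F) (U.restrictScalars F) hzX
      ⟨Submodule.disjoint_def.2 fun x hx hx' => Submodule.disjoint_def.1 hc.disjoint x hx hx', by
        rw [codisjoint_iff, eq_top_iff]
        intro x _
        have hx : x ∈ W ⊔ U := by rw [hc.sup_eq_top]; trivial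
        obtain ⟨w, hw, u, hu, rfl⟩ := Submodule.mem_sup.1 hx
        exact Submodule.mem_sup.2 ⟨w, hw, u, hu, rfl⟩⟩
      (by
        have h8 : finrank F W = finrank F K * finrank K W := (Module.finrank_mul_finrank F K W).symm
        have h9 : finrank F (W.restrictScalars F) = finrank F W := rfl
        rw [h9, h8, hFK, hW2])
      (fun w hw => hW w hw)
    exact hne (hU u hu))
  rw [hcK, ← pow_mul] at h7
  have h10 := lt_of_le_of_lt (Nat.pow_le_pow_left h7 5) (lt_of_lt_of_le h5 h6)
  rw [← pow_mul] at h10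
  have h9 := num_two (d := finrank K V) (by omega)
  have h11 : 2 * Nat.card F ^ (2 * (finrank K V * finrank K V)) ≤
      Nat.card F ^ (2 * (finrank K V * finrank K V) + 1) := by
    rw [pow_succ, mul_comm]
    exact Nat.mul_le_mul_left _ (by omega)
  have h12 : Nat.card F ^ (2 * (finrank K V * finrank K V) + 1) ≤ Nat.card F ^ (2 * tri (finrank K V) * 5) :=
    Nat.pow_le_pow_right (by omega) (by omega)
  omega

end ext

end Cfsg.Agent.H778.FX
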