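import Cfsg.Agent.H778.FX.Num
import Cfsg.Agent.H847.IF.Lift
import Cfsg.Agent.H440.Bs.Iso
import Cfsg.Agent.H845.Bs.Count

/-!
# S5719, PSL row: from an involution to a fundamental one
-/

set_option autoImplicit false

namespace Cfsg.Agent.H778.FX

open Subgroup Module Cfsg.Agent.H847.Bs Cfsg.Agent.H209.Fxy Cfsg.Agent.H440.Bs

section defs

variable {F V : Type*} [Field F] [AddCommGroup V] [Module F V]

/-- `-1` on a plane, `1` on a complement -/
def Fund (z : V ≃ₗ[F] V) : Prop := ∃ W U : Submodule F V, IsCompl W U ∧ finrank F W = 2 ∧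
  (∀ w ∈ W, z w = -w) ∧ ∀ u ∈ U, z u = u

theorem mem_slV {g : V ≃ₗ[F] V} : g ∈ slV F V ↔ LinearMap.det (g : V →ₗ[F] V) = 1 := Iff.rfl

instance finite_equiv [Finite V] : Finite (V ≃ₗ[F] V) :=
  Finite.of_injective (fun g : V ≃ₗ[F] V => (g : V → V)) DFunLike.coe_injective

theorem finite_of_fd [Finite F] [FiniteDimensional F V] : Finite V := Module.finite_of_finite F

end defs

section glue

variable {F V : Type*} [Field F] [AddCommGroup V] [Module F V] {D U : Submodule F V}

/-- `SL(D) × SL(U) → SL(V)` -/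
noncomputable def glueSL [FiniteDimensional F V] (h : IsCompl D U) : slV F D × slV F U →* slV F V where
  toFun p := ⟨glue h p.1 p.2, by
    rw [mem_slV, Cfsg.Agent.H845.Bs.det_glue, mem_slV.1 p.1.2, mem_slV.1 p.2.2, one_mul]⟩
  map_one' := Subtype.ext (glue_one h)
  map_mul' p q := Subtype.ext (glue_mul h p.1 q.1 p.2 q.2)

theorem coe_glueSL [FiniteDimensional F V] (h : IsCompl D U) (p : slV F D × slV F U) :
    ((glueSL h p : slV F V) : V ≃ₗ[F] V) = glue h p.1 p.2 := rfl

/-- a fundamental element of `SL(D)` is fundamental in `SL(V)` -/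
theorem fund_glue_left (h : IsCompl D U) {z : D ≃ₗ[F] D} (hz : Fund z) : Fund (glue h z 1) := by
  obtain ⟨W, W', hc, h2, h3, h4⟩ := hz
  refine ⟨W.map D.subtype, W'.map D.subtype ⊔ U, ?_, ?_, ?_, ?_⟩
  · constructor
    · rw [Submodule.disjoint_def]
      rintro _ ⟨w, hw, rfl⟩ hx
      rw [Submodule.mem_sup] at hx
      obtain ⟨_, ⟨w', hw', rfl⟩, u, hu, he⟩ := hx
      have h5 : (w : V) - w' = u := by
        have he' : (w' : V) + u = w := he
        rw [← he']
        abel
      have h6 : (u : V) ∈ D ⊓ U := by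
        refine ⟨?_, hu⟩
        rw [← h5]
        exact D.sub_mem w.2 w'.2
      rw [h.inf_eq_bot, Submodule.mem_bot] at h6
      rw [h6] at h5
      have h7 : w = w' := Subtype.ext (sub_eq_zero.1 h5)
      have h8 : w ∈ W ⊓ W' := ⟨hw, h7 ▸ hw'⟩
      rw [hc.inf_eq_bot, Submodule.mem_bot] at h8
      rw [h8]
      rfl
    · rw [codisjoint_iff, ← sup_assoc, ← Submodule.map_sup, hc.sup_eq_top, Submodule.map_top, Submodule.range_subtype,
        h.sup_eq_top]
  · rw [Submodule.finrank_map_subtype_eq, h2]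
  · rintro _ ⟨w, hw, rfl⟩
    change glue h z 1 (w : V) = -(w : V)
    rw [glue_left, h3 w hw]
    rfl
  · intro x hx
    rw [Submodule.mem_sup] at hx
    obtain ⟨_, ⟨w', hw', rfl⟩, u, hu, rfl⟩ := hx
    have h5 := glue_add h z 1 w' ⟨u, hu⟩
    change glue h z 1 ((w' : V) + u) = w' + u
    rw [h5, h4 w' hw']
    rfl

theorem fund_glue_right (h : IsCompl D U) {z : U ≃ₗ[F] U} (hz : Fund z) : Fund (glue h 1 z) := by
  rw [← glue_symm h 1 z]
  exact fund_glue_left h.symm hz

end glue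

section cent

variable {F V : Type*} [Field F] [Finite F] [AddCommGroup V] [Module F V] [FiniteDimensional F V] {D U : Submodule F V}

/-- centralisers in `SL(V)` and `GL(V)` -/
theorem index_cent_le (t : slV F V) {M N : ℕ} (hN : 0 < N)
    (hC : N ≤ Nat.card (centralizer ({(t : V ≃ₗ[F] V)} : Set (V ≃ₗ[F] V))))
    (hM : Nat.card (V ≃ₗ[F] V) ≤ M * N) : (centralizer ({t} : Set (slV F V))).index ≤ M := by
  have hf : Finite V := finite_of_fd (F := F)
  have h1 : centralizer ({t} : Set (slV F V)) = (centralizer ({(t : V ≃ₗ[F] V)} : Set (V ≃ₗ[F] V))).subgroupOf (slV F V) := by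
    ext g
    rw [mem_subgroupOf, mem_centralizer_singleton_iff, mem_centralizer_singleton_iff]
    constructor
    · intro hg
      exact congrArg Subtype.val hg
    · intro hg
      exact Subtype.ext hg
  have h2 : (centralizer ({t} : Set (slV F V))).index ≤ (centralizer ({(t : V ≃ₗ[F] V)} : Set (V ≃ₗ[F] V))).index := by
    rw [h1, ← relIndex_top_right (centralizer ({(t : V ≃ₗ[F] V)} : Set (V ≃ₗ[F] V)))]
    exact relIndex_le_of_le_right le_top (by rw [relIndex_top_right]; exact index_ne_zero_of_finite)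
  have h3 := index_mul_card (centralizer ({(t : V ≃ₗ[F] V)} : Set (V ≃ₗ[F] V)))
  by_contra h4
  rw [not_le] at h4
  have h5 : M < (centralizer ({(t : V ≃ₗ[F] V)} : Set (V ≃ₗ[F] V))).index := lt_of_lt_of_le h4 h2
  have h6 : M * N < (centralizer ({(t : V ≃ₗ[F] V)} : Set (V ≃ₗ[F] V))).index *
      Nat.card (centralizer ({(t : V ≃ₗ[F] V)} : Set (V ≃ₗ[F] V))) :=
    calc M * N < (centralizer ({(t : V ≃ₗ[F] V)} : Set (V ≃ₗ[F] V))).index * N := Nat.mul_lt_mul_of_pos_right h5 hN
      _ ≤ _ := Nat.mul_le_mul_left _ hC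
  rw [h3] at h6
  omega

/-- the centraliser of an involution of type `(a, b)` -/
theorem index_cent_split (hq : 3 ≤ Nat.card F) (hc : IsCompl D U) {t : slV F V} {μ ν : F}
    (hD : ∀ v ∈ D, (t : V ≃ₗ[F] V) v = μ • v) (hU : ∀ v ∈ U, (t : V ≃ₗ[F] V) v = ν • v) :
    (centralizer ({t} : Set (slV F V))).index ≤ 2 * Nat.card F ^ (2 * (finrank F D * finrank F U)) := by
  have hf : Finite V := finite_of_fd (F := F)
  refine index_cent_le t (N := gl (Nat.card F) (finrank F D) * gl (Nat.card F) (finrank F U))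
    (Nat.mul_pos (gl_pos (by omega) _) (gl_pos (by omega) _)) ?_ ?_
  · rw [← card_lin, ← card_lin, ← Nat.card_prod]
    let f : (D ≃ₗ[F] D) × (U ≃ₗ[F] U) → centralizer ({(t : V ≃ₗ[F] V)} : Set (V ≃ₗ[F] V)) :=
      fun p => ⟨glueHom hc p, by
        rw [mem_centralizer_singleton_iff]
        ext v
        obtain ⟨d, u, rfl⟩ := exists_add' hc v
        rw [LinearEquiv.mul_apply, LinearEquiv.mul_apply, map_add, hD d d.2, hU u u.2, glueHom_apply, glue_add, map_add,
          map_add, hD _ (p.1 d).2, hU _ (p.2 u).2, map_smul, map_smul, glue_left, glue_right]⟩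
    refine Nat.card_le_card_of_injective f fun p p' hp => ?_
    exact glueHom_injective hc (congrArg Subtype.val hp)
  · rw [card_lin, ← Submodule.finrank_add_eq_of_isCompl hc]
    exact gl_add_le hq _ _

end cent

section key

variable {F V : Type*} [Field F] [Finite F] [AddCommGroup V] [Module F V] [FiniteDimensional F V] {D U : Submodule F V}
  {T : Type*} [Group T] [Finite T] [IsSimpleGroup T] {A : Subgroup T} {Γ : Subgroup (MulAut T)}

/-- the setting -/
structure Lft (π : slV F V →* T) : Prop where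
  surj : Function.Surjective π
  ker : ∀ g, π g = 1 ↔ ∃ c : F, ∀ v, (g : V ≃ₗ[F] V) v = c • v

theorem key1 (h : IF A Γ) (hna : ∃ a b : T, a * b ≠ b * a) {π : slV F V →* T} (hπ : Lft π) (hq : 3 ≤ Nat.card F)
    (h2 : (2 : F) ≠ 0) (hc : IsCompl D U) {t : slV F V} {μ : F} (hμ : μ ≠ 0)
    (hD : ∀ v ∈ D, (t : V ≃ₗ[F] V) v = μ • v) (hU : ∀ v ∈ U, (t : V ≃ₗ[F] V) v = (-μ) • v) (hD0 : D ≠ ⊥) (hU0 : U ≠ ⊥)
    (ht : π t ∈ A) {L : Type*} [Group L] (f : L →* slV F V) (hf : ∀ x : L, f x * t = t * f x) :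
    ((A.comap π).comap f).index ^ 5 < 2 * Nat.card F ^ (2 * (finrank F D * finrank F U)) := by
  have hfin : Finite V := finite_of_fd (F := F)
  have ht1 : π t ≠ 1 := by
    intro h1
    obtain ⟨c, hc'⟩ := (hπ.ker t).1 h1
    obtain ⟨d, hd, hd0⟩ := Submodule.exists_mem_ne_zero_of_ne_bot hD0
    obtain ⟨u, hu, hu0⟩ := Submodule.exists_mem_ne_zero_of_ne_bot hU0
    have h3 : c = μ := smul_left_injective F hd0 (by show c • d = μ • d; rw [← hc', hD d hd])
    have h4 : c = -μ := smul_left_injective F hu0 (by show c • u = (-μ) • u; rw [← hc', hU u hu])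
    rw [h3] at h4
    have h5 : 2 * μ = 0 := by linear_combination h4
    rcases mul_eq_zero.1 h5 with h6 | h6
    · exact h2 h6
    · exact hμ h6
  have ht2 : π (t * t) = 1 := by
    rw [hπ.ker]
    refine ⟨μ * μ, fun v => ?_⟩
    obtain ⟨d, u, rfl⟩ := exists_add' hc v
    change (t : V ≃ₗ[F] V) ((t : V ≃ₗ[F] V) (d + u)) = _
    rw [map_add, hD d d.2, hU u u.2, map_add, map_smul, map_smul, hD d d.2, hU u u.2, smul_smul, smul_smul,
      neg_mul_neg, smul_add]
  have h5 := Cfsg.Agent.H847.IF.lift_E2 h hna π hπ.surj ht ht1 ht2 (B := f.range) (by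
    rintro _ ⟨x, rfl⟩
    rw [hf])
  rw [index_comap]
  exact lt_of_lt_of_le h5 (index_cent_split hq hc hD hU)

/-- PHI for two factors -/
def Phi2 {F V : Type*} [Field F] [AddCommGroup V] [Module F V] (D U : Submodule F V) : Prop :=
  ∀ X : Subgroup (slV F D × slV F U), (∀ z : slV F D, Fund (z : D ≃ₗ[F] D) → ((z, 1) : slV F D × slV F U) ∉ X) →
    (∀ z : slV F U, Fund (z : U ≃ₗ[F] U) → ((1, z) : slV F D × slV F U) ∉ X) →
    Nat.card F ^ (tri (finrank F D) + tri (finrank F U)) ≤ X.index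

/-- PHI for one factor -/
def Phi1 (F V : Type*) [Field F] [AddCommGroup V] [Module F V] : Prop :=
  ∀ X : Subgroup (slV F V), (∀ z : slV F V, Fund (z : V ≃ₗ[F] V) → z ∉ X) → Nat.card F ^ tri (finrank F V) ≤ X.index

/-- **an involution with eigenvalues in `F` gives a fundamental one** -/
theorem fund_of_split (h : IF A Γ) (hna : ∃ a b : T, a * b ≠ b * a) {π : slV F V →* T} (hπ : Lft π)
    (hq : 3 ≤ Nat.card F) (h5 : 5 ≤ finrank F V) (h2 : (2 : F) ≠ 0) (hc : IsCompl D U) (phi : Phi2 D U) {t : slV F V}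
    {μ : F} (hμ : μ ≠ 0) (hD : ∀ v ∈ D, (t : V ≃ₗ[F] V) v = μ • v) (hU : ∀ v ∈ U, (t : V ≃ₗ[F] V) v = (-μ) • v)
    (hD0 : D ≠ ⊥) (hU0 : U ≠ ⊥) (ht : π t ∈ A) : ∃ z : slV F V, Fund (z : V ≃ₗ[F] V) ∧ π z ∈ A := by
  by_contra hcon
  push Not at hcon
  have h6 := key1 h hna hπ hq h2 hc hμ hD hU hD0 hU0 ht (glueSL hc) (fun x => by
    apply Subtype.ext
    change glue hc x.1 x.2 * (t : V ≃ₗ[F] V) = (t : V ≃ₗ[F] V) * glue hc x.1 x.2
    ext v
    obtain ⟨d, u, rfl⟩ := exists_add' hc v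
    rw [LinearEquiv.mul_apply, LinearEquiv.mul_apply, map_add, hD d d.2, hU u u.2, glue_add, map_add,
      map_add, hD _ ((x.1 : D ≃ₗ[F] D) d).2, hU _ ((x.2 : U ≃ₗ[F] U) u).2, map_smul, map_smul, glue_left, glue_right])
  have h7 := phi ((A.comap π).comap (glueSL hc)) (fun z hz hzX => hcon _ (fund_glue_left hc hz) hzX)
    (fun z hz hzX => hcon _ (fund_glue_right hc hz) hzX)
  have h8 : finrank F D + finrank F U = finrank F V := Submodule.finrank_add_eq_of_isCompl hc
  have h9 := num_one (a := finrank F D) (b := finrank F U) (by omega)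
  have h10 : (Nat.card F ^ (tri (finrank F D) + tri (finrank F U))) ^ 5 <
      2 * Nat.card F ^ (2 * (finrank F D * finrank F U)) := lt_of_le_of_lt (Nat.pow_le_pow_left h7 5) h6
  rw [← pow_mul] at h10
  have h11 : 2 * Nat.card F ^ (2 * (finrank F D * finrank F U)) ≤
      Nat.card F ^ (2 * (finrank F D * finrank F U) + 1) := by
    rw [pow_succ, mul_comm]
    exact Nat.mul_le_mul_left _ (by omega)
  have h12 : Nat.card F ^ (2 * (finrank F D * finrank F U) + 1) ≤
      Nat.card F ^ ((tri (finrank F D) + tri (finrank F U)) * 5) :=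
    Nat.pow_le_pow_right (by omega) (by omega)
  omega

end key

end Cfsg.Agent.H778.FX
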