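import Mathlib

/-!
# S5719, PSL row: orders of general linear groups
-/

set_option autoImplicit false

namespace Cfsg.Agent.H778.FX

open Finset

/-- the order of `GL_n(q)` -/
def gl (q n : ℕ) : ℕ := ∏ i ∈ range n, (q ^ n - q ^ i)

/-- `∏ (q^i - 1)`, `1 ≤ i ≤ n` -/
def pp (q : ℕ) : ℕ → ℕ
  | 0 => 1
  | n + 1 => pp q n * (q ^ (n + 1) - 1)

/-- `n (n - 1) / 2` -/
def tri : ℕ → ℕ
  | 0 => 0
  | n + 1 => tri n + n

theorem tri_two (n : ℕ) : 2 * tri n + n = n * n := by
  induction n with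
  | zero => rfl
  | succ n ih =>
    simp only [tri]
    linarith [ih]

theorem tri_add (a b : ℕ) : tri (a + b) = tri a + tri b + a * b := by
  have h1 := tri_two (a + b)
  have h2 := tri_two a
  have h3 := tri_two b
  nlinarith

theorem gl_eq (q n : ℕ) : gl q n = q ^ tri n * pp q n := by
  unfold gl
  have h1 : ∀ k, k ≤ n → ∏ i ∈ range k, (q ^ n - q ^ i) = q ^ tri k * ∏ i ∈ range k, (q ^ (n - i) - 1) := by
    intro k
    induction k with
    | zero => intro _; simp [tri]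
    | succ k ih =>
      intro hk
      rw [prod_range_succ, ih (by omega), prod_range_succ, tri, pow_add]
      have h2 : q ^ n - q ^ k = q ^ k * (q ^ (n - k) - 1) := by
        rw [Nat.mul_sub, mul_one, ← pow_add]
        congr 2
        omega
      rw [h2]
      ring
  have h2 : ∀ m, ∏ i ∈ range m, (q ^ (m - i) - 1) = pp q m := by
    intro m
    induction m with
    | zero => rfl
    | succ m ih =>
      rw [prod_range_succ', pp, ← ih]
      congr 1
      apply prod_congr rfl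
      intro i _
      congr 2
      omega
  rw [h1 n le_rfl, h2]

theorem pp_pos {q : ℕ} (hq : 2 ≤ q) (n : ℕ) : 0 < pp q n := by
  induction n with
  | zero => simp [pp]
  | succ n ih =>
    simp only [pp]
    apply Nat.mul_pos ih
    have : 1 < q ^ (n + 1) := Nat.one_lt_pow (by omega) (by omega)
    omega

theorem gl_pos {q : ℕ} (hq : 2 ≤ q) (n : ℕ) : 0 < gl q n := by
  rw [gl_eq]
  exact Nat.mul_pos (pow_pos (by omega) _) (pp_pos hq n)

/-- `∏ q^i ≤ 2 ∏ (q^i - 1)`, `q ≥ 3` -/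
theorem two_pp {q : ℕ} (hq : 3 ≤ q) (n : ℕ) : q ^ tri (n + 1) * (q ^ n + 1) ≤ 2 * pp q n * q ^ n := by
  induction n with
  | zero => simp [tri, pp]
  | succ n ih =>
    simp only [pp]
    obtain ⟨x, hx⟩ : ∃ x, x = q ^ n := ⟨_, rfl⟩
    have hx1 : 1 ≤ x := by rw [hx]; exact Nat.one_le_pow _ _ (by omega)
    have h3 : q ^ (n + 1) = x * q := by rw [hx, pow_succ]
    have h4 : q ^ tri (n + 1 + 1) = q ^ tri (n + 1) * (x * q) := by
      rw [← h3, ← pow_add]
      rfl
    rw [h4, h3]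
    rw [← hx] at ih
    obtain ⟨y, hy⟩ : ∃ y, y = q ^ tri (n + 1) := ⟨_, rfl⟩
    rw [← hy] at ih ⊢
    have h5 : 1 ≤ x * q := Nat.mul_pos hx1 (by omega)
    have h6 : y * (x * q) * (x * q + 1) ≤ y * (x + 1) * (x * q - 1) * q := by
      zify [h5]
      have hx' : (1 : ℤ) ≤ x := by exact_mod_cast hx1
      have hq' : (3 : ℤ) ≤ q := by exact_mod_cast hq
      have hy' : (0 : ℤ) ≤ y := by positivity
      have h7 : (x : ℤ) * q * (x * q + 1) ≤ (x + 1) * (x * q - 1) * q := by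
        have h8 : (0 : ℤ) ≤ ((x : ℤ) * q - 2 * x - 1) * q := by
          apply mul_nonneg _ (by omega)
          nlinarith
        nlinarith
      nlinarith [mul_le_mul_of_nonneg_left h7 hy']
    calc y * (x * q) * (x * q + 1) ≤ y * (x + 1) * (x * q - 1) * q := h6
      _ ≤ (2 * pp q n * x) * (x * q - 1) * q := by gcongr
      _ = 2 * (pp q n * (x * q - 1)) * (x * q) := by ring

theorem two_pp' {q : ℕ} (hq : 3 ≤ q) (n : ℕ) : q ^ tri (n + 1) ≤ 2 * pp q n := by
  have h1 := two_pp hq n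
  have h2 : 0 < q ^ n := pow_pos (by omega) _
  by_contra h3
  rw [not_le] at h3
  have h4 : 2 * pp q n * q ^ n < q ^ tri (n + 1) * q ^ n := (Nat.mul_lt_mul_right h2).2 h3
  have h5 : q ^ tri (n + 1) * q ^ n ≤ q ^ tri (n + 1) * (q ^ n + 1) := Nat.mul_le_mul_left _ (Nat.le_succ _)
  omega

/-- `|GL_n(q)| ≤ q^(n²)` -/
theorem gl_le (q n : ℕ) : gl q n ≤ q ^ (n * n) := by
  unfold gl
  calc ∏ i ∈ range n, (q ^ n - q ^ i) ≤ ∏ i ∈ range n, q ^ n := Finset.prod_le_prod' fun i _ => Nat.sub_le _ _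
    _ = q ^ (n * n) := by rw [prod_const, card_range, pow_mul]

/-- `q^(n²) ≤ 2 |GL_n(q)|` -/
theorem le_gl {q : ℕ} (hq : 3 ≤ q) (n : ℕ) : q ^ (n * n) ≤ 2 * gl q n := by
  rw [gl_eq]
  have h1 := two_pp' hq n
  have h2 : n * n = tri n + tri (n + 1) := by
    have := tri_two n
    simp only [tri]
    omega
  rw [h2, pow_add]
  calc q ^ tri n * q ^ tri (n + 1) ≤ q ^ tri n * (2 * pp q n) := Nat.mul_le_mul_left _ h1
    _ = 2 * (q ^ tri n * pp q n) := by ring

theorem pp_add_le (q a b : ℕ) : pp q (a + b) ≤ pp q a * q ^ (a * b) * q ^ tri (b + 1) := by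
  induction b with
  | zero => simp [tri]
  | succ b ih =>
    rw [← add_assoc, pp]
    calc pp q (a + b) * (q ^ (a + b + 1) - 1) ≤ (pp q a * q ^ (a * b) * q ^ tri (b + 1)) * q ^ (a + b + 1) :=
          Nat.mul_le_mul ih (Nat.sub_le _ _)
      _ = pp q a * q ^ (a * (b + 1)) * q ^ tri (b + 1 + 1) := by
          have h1 : tri (b + 1 + 1) = tri (b + 1) + (b + 1) := rfl
          rw [h1, show a * (b + 1) = a * b + a from by ring, pow_add, pow_add, pow_add, pow_add, pow_add]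
          ring

/-- `|GL_(a+b)(q)| ≤ 2 q^(2ab) |GL_a(q)| |GL_b(q)|` -/
theorem gl_add_le {q : ℕ} (hq : 3 ≤ q) (a b : ℕ) : gl q (a + b) ≤ 2 * q ^ (2 * (a * b)) * (gl q a * gl q b) := by
  rw [gl_eq, gl_eq, gl_eq, tri_add]
  calc q ^ (tri a + tri b + a * b) * pp q (a + b)
      ≤ q ^ (tri a + tri b + a * b) * (pp q a * q ^ (a * b) * q ^ tri (b + 1)) := Nat.mul_le_mul_left _ (pp_add_le q a b)
    _ ≤ q ^ (tri a + tri b + a * b) * (pp q a * q ^ (a * b) * (2 * pp q b)) :=
        Nat.mul_le_mul_left _ (Nat.mul_le_mul_left _ (two_pp' hq b))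
    _ = _ := by
        rw [two_mul (a * b), pow_add, pow_add, pow_add]
        ring

/-- the quadratic field extension -/
theorem gl_sq_le {q : ℕ} (hq : 3 ≤ q) (d : ℕ) : gl q (2 * d) ≤ 2 * q ^ (2 * (d * d)) * gl (q ^ 2) d := by
  have h1 := gl_le q (2 * d)
  have h2 := le_gl (q := q ^ 2) (by nlinarith) d
  calc gl q (2 * d) ≤ q ^ (2 * d * (2 * d)) := h1
    _ = q ^ (2 * (d * d)) * (q ^ 2) ^ (d * d) := by rw [← pow_mul, ← pow_add]; congr 1; ring
    _ ≤ q ^ (2 * (d * d)) * (2 * gl (q ^ 2) d) := Nat.mul_le_mul_left _ h2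
    _ = _ := by ring

theorem card_lin (E : Type*) [Field E] [Finite E] (V : Type*) [AddCommGroup V] [Module E V]
    [FiniteDimensional E V] : Nat.card (V ≃ₗ[E] V) = gl (Nat.card E) (Module.finrank E V) := by
  classical
  have := Fintype.ofFinite E
  let b := Module.finBasis E V
  let e1 : (V ≃ₗ[E] V) ≃* LinearMap.GeneralLinearGroup E V :=
    (LinearMap.GeneralLinearGroup.generalLinearEquiv E V).symm
  let e2 : LinearMap.GeneralLinearGroup E V ≃* Matrix.GeneralLinearGroup (Fin (Module.finrank E V)) E :=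
    Units.mapEquiv (LinearMap.toMatrixAlgEquiv b).toMulEquiv
  rw [Nat.card_congr (e1.trans e2).toEquiv, Matrix.card_GL_field, Nat.card_eq_fintype_card, gl,
    Finset.prod_range]

/-- `(k² + m² - k - m)/2 · 5 ≥ 2 k m + 1` -/
theorem num_one {a b : ℕ} (h : 5 ≤ a + b) : 2 * (a * b) + 1 ≤ 5 * (tri a + tri b) := by
  have h1 := tri_two a
  have h2 := tri_two b
  have h3 : 2 * (tri a + tri b) + (a + b) = a * a + b * b := by omega
  have h4 : (a : ℤ) * a + b * b ≥ 2 * (a * b) := by nlinarith [sq_nonneg ((a : ℤ) - b)]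
  have h5 : (2 : ℤ) * (tri a + tri b) + (a + b) = a * a + b * b := by exact_mod_cast h3
  have h6 : (5 : ℤ) ≤ a + b := by exact_mod_cast h
  zify
  nlinarith

theorem num_two {d : ℕ} (h : 3 ≤ d) : 2 * (d * d) + 1 ≤ 5 * (2 * tri d) := by
  have h1 := tri_two d
  have h2 : 3 * d ≤ d * d := Nat.mul_le_mul_right d h
  nlinarith

end Cfsg.Agent.H778.FX
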