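import Cfsg.Agent.H778.FX.Ex
import Cfsg.Agent.H353.IF.PhiSLCor
import Cfsg.Agent.H209.IF.Kill
import Cfsg.Agent.S0249

/-!
# S5719, the row `PSL_m(q)`, `q` odd, `m ≥ 5` (helper778; PHI: helper353)

`exists_fund_psl` : an involution of `A` gives a fundamental involution in the preimage of `A`.
-/

set_option autoImplicit false

namespace Cfsg.Agent.H778.FX

open Subgroup Module Cfsg.Agent.H847.Bs Cfsg.Agent.H209.Fxy Cfsg.Agent.H440.Bs

theorem tri_eq (n : ℕ) : tri n = n * (n - 1) / 2 := by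
  have h1 := tri_two n
  rcases n with - | n
  · rfl
  · rw [Nat.add_sub_cancel]
    have h2 : (n + 1) * n = 2 * tri (n + 1) := by nlinarith
    rw [h2, Nat.mul_div_cancel_left _ (by norm_num)]

section conv

variable {F V : Type} [Field F] [AddCommGroup V] [Module F V]

theorem fund_to {z : V ≃ₗ[F] V} (h2 : (2 : F) ≠ 0) (hz : Cfsg.Agent.H353.Phi.fund z) : Fund z := by
  rw [Cfsg.Agent.H353.Phi.fund_iff h2] at hz
  obtain ⟨hzz, h3⟩ := hz
  have hg : ∀ v, z (z v) = ((1 : F) * 1) • v := by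
    intro v
    rw [one_mul, one_smul]
    exact DFunLike.congr_fun hzz v
  obtain ⟨D, U, hc, hD, hU⟩ := split_spaces (g := z) (μ := 1) h2 one_ne_zero hg
  have hU' : U = Cfsg.Agent.H353.Phi.negS z := by
    apply le_antisymm
    · intro v hv
      rw [Cfsg.Agent.H353.Phi.mem_negS, hU v hv, neg_smul, one_smul]
    · intro v hv
      rw [Cfsg.Agent.H353.Phi.mem_negS] at hv
      obtain ⟨d, u, rfl⟩ := exists_add' hc v
      rw [map_add, hD d d.2, hU u u.2, one_smul, neg_smul, one_smul, neg_add, add_left_inj] at hv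
      have h4 : (2 : F) • (d : V) = 0 := by
        rw [two_smul]
        nth_rewrite 1 [hv]
        exact neg_add_cancel _
      have h5 : (d : V) = 0 := (smul_eq_zero.1 h4).resolve_left h2
      rw [h5, zero_add]
      exact u.2
  refine ⟨U, D, hc.symm, by rw [hU', h3], fun w hw => ?_, fun u hu => ?_⟩
  · rw [hU w hw, neg_smul, one_smul]
  · rw [hD u hu, one_smul]

theorem fund_of {z : V ≃ₗ[F] V} (h2 : (2 : F) ≠ 0) (hz : Fund z) : Cfsg.Agent.H353.Phi.fund z := by
  obtain ⟨W, U, hc, h3, hW, hU⟩ := hz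
  rw [Cfsg.Agent.H353.Phi.fund_iff h2]
  refine ⟨?_, ?_⟩
  · ext v
    obtain ⟨d, u, rfl⟩ := exists_add' hc v
    change z (z (d + u)) = d + u
    rw [map_add, hW d d.2, hU u u.2, map_add, map_neg, hW d d.2, hU u u.2, neg_neg]
  · have h4 : Cfsg.Agent.H353.Phi.negS z = W := by
      apply le_antisymm
      · intro v hv
        rw [Cfsg.Agent.H353.Phi.mem_negS] at hv
        obtain ⟨d, u, rfl⟩ := exists_add' hc v
        rw [map_add, hW d d.2, hU u u.2, neg_add, add_right_inj] at hv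
        have h4 : (2 : F) • (u : V) = 0 := by
          rw [two_smul]
          nth_rewrite 1 [hv]
          exact neg_add_cancel _
        have h5 : (u : V) = 0 := (smul_eq_zero.1 h4).resolve_left h2
        rw [h5, add_zero]
        exact d.2
      · intro v hv
        exact hW v hv
    rw [h4, h3]

end conv

/-- PHI -/
theorem phiAll (hFT : ∀ (D : Type) [Group D] [Finite D], Odd (Nat.card D) → Group.IsSolvable D) : PhiAll where
  one F V _ _ _ _ _ h2 X hX := by
    rw [tri_eq]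
    exact Cfsg.Agent.H353.Phi.phi_sl_abs h2 hFT fun z hz => hX z (fund_to h2 hz)
  two F V _ _ _ _ _ D U h2 X hX hX' := by
    rw [tri_eq, tri_eq]
    exact Cfsg.Agent.H353.Phi.phi_sl_prod h2 hFT (fun z hz => hX z (fund_to h2 hz)) (fun z hz => hX' z (fund_to h2 hz))

/-- `SL(Fⁿ) → PSL_n(F)` -/
theorem exists_lft {F : Type*} [Field F] {n : ℕ} :
    ∃ π : slV F (Fin n → F) →* Matrix.ProjectiveSpecialLinearGroup (Fin n) F, Lft π ∧
      ∀ A : Matrix.SpecialLinearGroup (Fin n) F, π (Cfsg.Agent.H353.Phi.slEquiv F (Fin n) A) =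
        QuotientGroup.mk' (center (Matrix.SpecialLinearGroup (Fin n) F)) A := by
  let Φ := Cfsg.Agent.H353.Phi.slEquiv F (Fin n)
  refine ⟨(QuotientGroup.mk' (center (Matrix.SpecialLinearGroup (Fin n) F))).comp Φ.symm.toMonoidHom, ⟨?_, ?_⟩, ?_⟩
  · intro g
    obtain ⟨A, hA⟩ := QuotientGroup.mk'_surjective _ g
    refine ⟨Φ A, ?_⟩
    change QuotientGroup.mk' _ (Φ.symm (Φ A)) = g
    rw [MulEquiv.symm_apply_apply, hA]
  · intro g
    obtain ⟨A, rfl⟩ := Φ.surjective g
    have h1 : ((QuotientGroup.mk' (center (Matrix.SpecialLinearGroup (Fin n) F))).comp Φ.symm.toMonoidHom)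
        (Φ A) = QuotientGroup.mk' _ A := by
      change QuotientGroup.mk' _ (Φ.symm (Φ A)) = _
      rw [MulEquiv.symm_apply_apply]
    rw [h1, ← MonoidHom.mem_ker, QuotientGroup.ker_mk', Matrix.SpecialLinearGroup.mem_center_iff]
    constructor
    · rintro ⟨c, -, hc⟩
      refine ⟨c, fun v => ?_⟩
      change (A : Matrix (Fin n) (Fin n) F).mulVec v = c • v
      rw [← hc, Matrix.scalar_apply, ← Matrix.smul_one_eq_diagonal, Matrix.smul_mulVec, Matrix.one_mulVec]
    · rintro ⟨c, hc⟩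
      have hc' : ∀ v, (A : Matrix (Fin n) (Fin n) F).mulVec v = c • v := hc
      have h2 : Matrix.scalar (Fin n) c = (A : Matrix (Fin n) (Fin n) F) := by
        refine Matrix.ext_of_mulVec_single fun i => ?_
        rw [hc', Matrix.scalar_apply, ← Matrix.smul_one_eq_diagonal, Matrix.smul_mulVec, Matrix.one_mulVec]
      refine ⟨c, ?_, h2⟩
      have h3 := A.2
      rw [← h2, Matrix.scalar_apply, Matrix.det_diagonal, Finset.prod_const, Finset.card_univ] at h3
      exact h3
  · intro A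
    change QuotientGroup.mk' _ (Φ.symm (Φ A)) = _
    rw [MulEquiv.symm_apply_apply]

/-- a group with an `IF` is not commutative -/
theorem nonab {T : Type*} [Group T] [IsSimpleGroup T] {A : Subgroup T} {Γ : Subgroup (MulAut T)} (h : IF A Γ) :
    ∃ a b : T, a * b ≠ b * a := by
  by_contra hcon
  push Not at hcon
  have hN : A.Normal := ⟨fun a ha g => by rw [hcon g a, mul_inv_cancel_right]; exact ha⟩
  rcases hN.eq_bot_or_eq_top with h1 | h1
  · exact h.ne_bot h1
  · exact h.ne_top h1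

/-- **(USE) for `PSL_m(q)`, `q` odd, `m ≥ 5`** -/
theorem exists_fund_psl (hFT : ∀ (D : Type) [Group D] [Finite D], Odd (Nat.card D) → Group.IsSolvable D)
    {F : Type} [Field F] [Finite F] {m : ℕ} (hm : 5 ≤ m) (h2 : (2 : F) ≠ 0)
    {A : Subgroup (Matrix.ProjectiveSpecialLinearGroup (Fin m) F)}
    {Γ : Subgroup (MulAut (Matrix.ProjectiveSpecialLinearGroup (Fin m) F))} (h : IF A Γ)
    (hev : ∃ t ∈ A, orderOf t = 2) :
    ∃ z : Matrix.SpecialLinearGroup (Fin m) F, Cfsg.Agent.H353.Phi.mfund z ∧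
      QuotientGroup.mk' (center (Matrix.SpecialLinearGroup (Fin m) F)) z ∈ A := by
  have hs : IsSimpleGroup (Matrix.ProjectiveSpecialLinearGroup (Fin m) F) := Cfsg.Agent.S0249.result m (by omega)
  have hfin : Finite (Matrix.ProjectiveSpecialLinearGroup (Fin m) F) := Quotient.finite _
  obtain ⟨π, hπ, hπA⟩ := exists_lft (F := F) (n := m)
  obtain ⟨z, hz, hzA⟩ := exists_fund (phiAll hFT) h (nonab h) hπ
    (by rw [Module.finrank_fin_fun]; exact hm) h2 hev
  obtain ⟨B, rfl⟩ := (Cfsg.Agent.H353.Phi.slEquiv F (Fin m)).surjective z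
  refine ⟨B, ?_, ?_⟩
  · rw [Cfsg.Agent.H353.Phi.mfund_iff]
    exact fund_of h2 hz
  · rwa [hπA] at hzA

end Cfsg.Agent.H778.FX
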